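import Mathlib
import Cfsg.Agent.Lib.Helper67.LSF.Defs

/-!
# LSF (S5286), package [PATH]: every element of the group comes from a path
-/

set_option autoImplicit false

namespace Cfsg.Agent.Lib.Helper84.LSF

open Cfsg Cfsg.Agent.Lib.Helper67.LSF

universe u

variable {Ω : Type u} [Group Ω] {S : Subgroup Ω}

theorem inr_mul_elt (F : FusionSystem S) (q' q : Equiv.Perm S) (m : FreeGroup (X F)) :
    (SemidirectProduct.inr q' * (SemidirectProduct.inr q * SemidirectProduct.inl m) : Ghat F)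
      = SemidirectProduct.inr (q' * q) * SemidirectProduct.inl m := by
  rw [← mul_assoc, ← map_mul]

theorem inl_mul_elt (F : FusionSystem S) (w : FreeGroup (X F)) (q : Equiv.Perm S)
    (m : FreeGroup (X F)) :
    (SemidirectProduct.inl w * (SemidirectProduct.inr q * SemidirectProduct.inl m) : Ghat F)
      = SemidirectProduct.inr q * SemidirectProduct.inl (autF F q⁻¹ w * m) := by
  have h := SemidirectProduct.inl_aut (φ := autF F) q⁻¹ w
  rw [map_mul, h]
  simp only [map_inv, inv_inv]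
  group

theorem autF_x0 (F : FusionSystem S) (i : Idx F) (q : Equiv.Perm S) :
    autF F q (FreeGroup.of (x0 i))
      = FreeGroup.of (⟨i, ((q : Equiv.Perm S) : Equiv.Perm S ⧸ Lam i)⟩ : X F) := by
  unfold autF
  rw [autX_of]
  unfold x0
  rw [xperm_mk, mul_one]

theorem tGen_mul_elt (F : FusionSystem S) (i : Idx F) (q : Equiv.Perm S)
    (L : List (X F × Bool)) :
    (tGen i * (SemidirectProduct.inr q * SemidirectProduct.inl (FreeGroup.mk L)) : Ghat F)
      = SemidirectProduct.inr (i.σ * q) * SemidirectProduct.inl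
        (FreeGroup.mk ((⟨i, ((q⁻¹ : Equiv.Perm S) : Equiv.Perm S ⧸ Lam i)⟩, true) :: L)) := by
  unfold tGen
  rw [mul_assoc, inl_mul_elt, inr_mul_elt, autF_x0]
  rfl

theorem tGen_inv_mul_elt (F : FusionSystem S) (i : Idx F) (q : Equiv.Perm S)
    (L : List (X F × Bool)) :
    ((tGen i)⁻¹ * (SemidirectProduct.inr q * SemidirectProduct.inl (FreeGroup.mk L)) : Ghat F)
      = SemidirectProduct.inr (i.σ⁻¹ * q) * SemidirectProduct.inl
        (FreeGroup.mk ((⟨i, ((q⁻¹ * i.σ : Equiv.Perm S) : Equiv.Perm S ⧸ Lam i)⟩, false) :: L)) := by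
  unfold tGen
  rw [mul_inv_rev, ← map_inv, ← map_inv, mul_assoc, inr_mul_elt, inl_mul_elt, map_inv, autF_x0,
    mul_inv_rev, inv_inv]
  rfl

/-- [PATH] -/
theorem pkgPath : PkgPath.{u} := by
  intro Ω _ S F g hg
  unfold GG at hg
  induction hg using Subgroup.closure_induction_left with
  | one =>
    refine ⟨[], lam S 1, Path.nil 1, ?_⟩
    rw [map_one, map_one, one_mul]
    rfl
  | mul_left x hx y hy ih =>
    obtain ⟨L, q, hP, rfl⟩ := ih
    rcases hx with ⟨s, rfl⟩ | ⟨i, rfl⟩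
    · exact ⟨L, lam S s * q, Path.a s hP, inr_mul_elt F _ _ _⟩
    · exact ⟨_, _, Path.t i hP, tGen_mul_elt F i q L⟩
  | inv_mul_cancel x hx y hy ih =>
    obtain ⟨L, q, hP, rfl⟩ := ih
    rcases hx with ⟨s, rfl⟩ | ⟨i, rfl⟩
    · refine ⟨L, lam S s⁻¹ * q, Path.a s⁻¹ hP, ?_⟩
      unfold aGen
      rw [← map_inv, ← map_inv, inr_mul_elt]
    · exact ⟨_, _, Path.t' i hP, tGen_inv_mul_elt F i q L⟩

end Cfsg.Agent.Lib.Helper84.LSF
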